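/-
Limits of additive subgroups of a finite ring under a polynomial one parameter family.
-/
import Mathlib
set_option autoImplicit false
set_option linter.unusedSectionVars false

namespace CF.Lynd
open Polynomial

variable {R : Type*} [Ring R]

/-- polynomials with coefficients in `W` -/
def Pw (W : AddSubgroup R) : AddSubgroup R[X] where
  carrier := {P | ∀ j, P.coeff j ∈ W}
  add_mem' h k j := by rw [coeff_add]; exact add_mem (h j) (k j)
  zero_mem' j := by simp
  neg_mem' h j := by rw [coeff_neg]; exact neg_mem (h j)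

variable {W W' L : AddSubgroup R} {u v u' v' P : R[X]}

theorem Pw.X_pow_mul (h : P ∈ Pw W) (n : ℕ) : X ^ n * P ∈ Pw W := fun j => by
  rw [coeff_X_pow_mul']; split_ifs; exacts [h _, zero_mem _]

theorem Pw.sandwich (h : ∀ w ∈ W, u * C w * v ∈ Pw L) (hP : P ∈ Pw W) : u * P * v ∈ Pw L := by
  rw [P.as_sum_support_C_mul_X_pow, Finset.mul_sum, Finset.sum_mul]
  refine sum_mem fun j _ => ?_
  rw [← mul_assoc, mul_assoc _ _ v, Polynomial.X_pow_mul, ← mul_assoc, ← Polynomial.X_pow_mul]
  exact Pw.X_pow_mul (h _ (hP j)) j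

theorem Pw.mul_eq_zero (h : ∀ a ∈ W, ∀ b ∈ W', a * b = 0) {Q : R[X]} (hP : P ∈ Pw W) (hQ : Q ∈ Pw W') :
    P * Q = 0 := by
  ext n; rw [coeff_mul]; exact Finset.sum_eq_zero fun x _ => h _ (hP _) _ (hQ _)

/-- leading coefficients -/
def Lim (u v : R[X]) (W : AddSubgroup R) : AddSubgroup R where
  carrier := {r | ∃ n, ∃ P ∈ Pw W, (u * P * v).natDegree ≤ n ∧ (u * P * v).coeff n = r}
  add_mem' := by
    rintro _ _ ⟨n, P, hP, d, rfl⟩ ⟨m, Q, hQ, e, rfl⟩
    have a : ∀ k (P : R[X]), u * (X ^ k * P) * v = X ^ k * (u * P * v) := fun k P => by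
      rw [← mul_assoc u, ← X_pow_mul, mul_assoc, mul_assoc, mul_assoc]
    refine ⟨n + m, X ^ m * P + X ^ n * Q, add_mem (Pw.X_pow_mul hP m) (Pw.X_pow_mul hQ n), ?_, ?_⟩
    · rw [mul_add, add_mul, a, a]
      refine natDegree_add_le_of_degree_le (natDegree_mul_le.trans ?_) (natDegree_mul_le.trans ?_) <;>
        have := natDegree_X_pow_le (R := R) m <;> have := natDegree_X_pow_le (R := R) n <;> omega
    · rw [mul_add, add_mul, a, a, coeff_add, coeff_X_pow_mul, add_comm n, coeff_X_pow_mul]
  zero_mem' := ⟨0, 0, zero_mem _, by simp, by simp⟩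
  neg_mem' := by
    rintro _ ⟨n, P, hP, d, rfl⟩
    exact ⟨n, -P, neg_mem hP, by simpa using d, by simp⟩

theorem Lim.le (h : ∀ w ∈ W, u * C w * v ∈ Pw L) : Lim u v W ≤ L := by
  rintro _ ⟨n, P, hP, -, rfl⟩
  exact Pw.sandwich h hP n

theorem Lim.mul (h : ∀ a ∈ W, ∀ b ∈ W', a * b = 0) (e : v * u' = 1) :
    ∀ a ∈ Lim u v W, ∀ b ∈ Lim u' v' W', a * b = 0 := by
  rintro _ ⟨n, P, hP, d, rfl⟩ _ ⟨m, Q, hQ, d', rfl⟩
  rw [← coeff_mul_add_eq_of_natDegree_le d d', show u * P * v * (u' * Q * v') =
    u * (P * (v * u') * Q) * v' by noncomm_ring, e, mul_one, Pw.mul_eq_zero h hP hQ]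
  simp

theorem Lim.conj {y y' : R} (e : u * v = 1) (h : ∀ w ∈ W, v * C y * u * C w * (v * C y' * u) ∈ Pw W) :
    ∀ a ∈ Lim u v W, y * a * y' ∈ Lim u v W := by
  rintro _ ⟨n, P, hP, d, rfl⟩
  have e2 : u * (v * C y * u * P * (v * C y' * u)) * v = C y * (u * P * v) * C y' := by
    rw [show u * (v * C y * u * P * (v * C y' * u)) * v =
      (u * v) * C y * (u * P * v) * C y' * (u * v) by noncomm_ring, e, one_mul, mul_one]
  refine ⟨n, _, Pw.sandwich h hP, ?_, ?_⟩
  · rw [e2]; exact (natDegree_mul_C_le _ _).trans ((natDegree_C_mul_le _ _).trans d)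
  · rw [e2, coeff_mul_C, coeff_C_mul]

theorem Lim.der {D : R} (hu : derivative u = C D * u) (hv : derivative v = -(v * C D)) :
    ∀ a ∈ Lim u v W, D * a - a * D ∈ Lim u v W := by
  rintro _ ⟨n, P, hP, d, rfl⟩
  have e : u * -derivative P * v = C D * (u * P * v) - u * P * v * C D - derivative (u * P * v) := by
    rw [derivative_mul, derivative_mul, hu, hv]; noncomm_ring
  refine ⟨n, -derivative P, neg_mem fun j => ?_, ?_, ?_⟩
  · rw [coeff_derivative, ← Nat.cast_succ, ← nsmul_eq_mul']; exact nsmul_mem (hP _) _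
  · rw [e]
    exact (natDegree_sub_le_of_le ((natDegree_sub_le_of_le ((natDegree_C_mul_le _ _).trans d)
      ((natDegree_mul_C_le _ _).trans d)).trans (max_self n).le)
      ((natDegree_derivative_le _).trans ((Nat.sub_le _ _).trans d))).trans (max_self n).le
  · rw [e, coeff_sub, coeff_sub, coeff_C_mul, coeff_mul_C, coeff_derivative,
      coeff_eq_zero_of_natDegree_lt (n := n + 1) (by omega), zero_mul, sub_zero]

theorem pow_le_aux {a b d : ℕ} (hb : 0 < b) (h : ∀ m, a ^ m ≤ b ^ (m + d)) : a ≤ b := by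
  by_contra c
  have h1 : (1 : ℝ) < a / b := (one_lt_div (by exact_mod_cast hb)).2 (by exact_mod_cast not_le.1 c)
  obtain ⟨m, hm⟩ := pow_unbounded_of_one_lt ((b : ℝ) ^ d) h1
  rw [div_pow, lt_div_iff₀ (by positivity), ← pow_add, add_comm] at hm
  exact hm.not_ge (by exact_mod_cast h m)

theorem Lim.card [Finite R] (e : u' * u = 1) (e' : v * v' = 1) :
    Nat.card W ≤ Nat.card (Lim u v W) := by
  refine pow_le_aux (d := u.natDegree + v.natDegree) Nat.card_pos fun m => ?_
  have key : ∀ n, ∀ S : Finset R[X], (∀ P ∈ S, P ∈ Pw W) →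
      (∀ P ∈ S, ∀ Q ∈ S, ∀ j, n ≤ j → (u * P * v).coeff j = (u * Q * v).coeff j) →
      S.card ≤ Nat.card (Lim u v W) ^ n := by
    intro n
    induction n with
    | zero =>
      intro S _ h
      refine Finset.card_le_one.2 fun P hP Q hQ => ?_
      have := congrArg (fun f => u' * f * v') (ext fun j => h P hP Q hQ j j.zero_le)
      simpa only [← mul_assoc, e, one_mul, mul_assoc _ v, e', mul_one] using this
    | succ n ih =>
      intro S hS h
      classical
      rcases S.eq_empty_or_nonempty with rfl | ⟨P0, h0⟩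
      · simp
      haveI := Fintype.ofFinite (Lim u v W)
      let f : S → Lim u v W := fun P => ⟨(u * (P - P0) * v).coeff n, n, _, sub_mem (hS _ P.2) (hS _ h0),
        natDegree_le_iff_coeff_eq_zero.2 fun j hj => by
          rw [mul_sub, sub_mul, coeff_sub, h _ P.2 _ h0 j hj, sub_self], rfl⟩
      rw [← Fintype.card_coe, ← Finset.card_univ,
        Finset.card_eq_sum_card_fiberwise (f := f) (t := Finset.univ) fun _ _ => Finset.mem_univ _,
        pow_succ', Nat.card_eq_fintype_card, ← Finset.card_univ, ← smul_eq_mul]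
      refine Finset.sum_le_card_nsmul _ _ _ fun r _ => ?_
      rw [← Finset.card_image_of_injective _ Subtype.val_injective, Finset.card_univ,
        ← Nat.card_eq_fintype_card]
      refine ih _ (fun P hP => ?_) fun P hP Q hQ j hj => ?_
      · obtain ⟨P, -, rfl⟩ := Finset.mem_image.1 hP
        exact hS _ P.2
      · obtain ⟨P, a, rfl⟩ := Finset.mem_image.1 hP
        obtain ⟨Q, b, rfl⟩ := Finset.mem_image.1 hQ
        rcases hj.eq_or_lt with rfl | hj
        · have := congrArg Subtype.val ((Finset.mem_filter.1 a).2.trans (Finset.mem_filter.1 b).2.symm)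
          simpa only [f, mul_sub, sub_mul, coeff_sub, sub_left_inj] using this
        · exact h _ P.2 _ Q.2 j hj
  classical
  haveI := Fintype.ofFinite W
  let g : (Fin m → W) → R[X] := fun c => ∑ i : Fin m, monomial i (c i : R)
  have gc : ∀ c j, (g c).coeff j = if h : j < m then (c ⟨j, h⟩ : R) else 0 := fun c j => by
    simp only [g, finsetSum_coeff, coeff_monomial]
    split_ifs with h
    · rw [Finset.sum_eq_single ⟨j, h⟩ (fun i _ ne => if_neg fun e => ne (Fin.ext e)) (by simp), if_pos rfl]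
    · exact Finset.sum_eq_zero fun i _ => if_neg fun e : (i : ℕ) = j => h (e ▸ i.2)
  have gi : Function.Injective g := fun c c' e => funext fun i => Subtype.ext (by
    have := congrArg (coeff · i) e
    simpa [gc] using this)
  have := key (m + (u.natDegree + v.natDegree)) (Finset.univ.image g) (fun P hP j => ?_)
    fun P hP Q hQ j hj => ?_
  · rwa [Finset.card_image_of_injective _ gi, Finset.card_univ, Fintype.card_fun, Fintype.card_fin,
      ← Nat.card_eq_fintype_card] at this
  · obtain ⟨c, -, rfl⟩ := Finset.mem_image.1 hP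
    rw [gc]; split_ifs; exacts [(c _).2, zero_mem _]
  · have z : ∀ c, (u * g c * v).coeff j = 0 := fun c => by
      rcases m with _ | m
      · simp [g]
      have : (g c).natDegree ≤ m := natDegree_le_iff_coeff_eq_zero.2 fun j hj => by
        rw [gc, dif_neg (by omega)]
      have a := natDegree_mul_le (p := u * g c) (q := v)
      have b := natDegree_mul_le (p := u) (q := g c)
      exact coeff_eq_zero_of_natDegree_lt (by omega)
    obtain ⟨c, -, rfl⟩ := Finset.mem_image.1 hP
    obtain ⟨c', -, rfl⟩ := Finset.mem_image.1 hQ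
    rw [z, z]

end CF.Lynd
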