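/-
A replacement lemma for square zero additive subgroups of a finite ring of characteristic `p ≥ 5`.
-/
import Cfsg.Agent.Lynd.Lim
set_option autoImplicit false
set_option linter.unusedSectionVars false

namespace CF.Lynd
open Polynomial

variable {R : Type*} [Ring R]

/-- `24` is invertible in the additive sense -/
def Dv (R : Type*) [Ring R] : Prop := ∃ k : ℕ, ∀ r : R, k • 24 • r = r

theorem Dv.of_prime {p : ℕ} (hp : p.Prime) (h5 : 5 ≤ p) (h : ∀ r : R, p • r = 0) : Dv R := by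
  have c : Nat.Coprime 24 p := by
    refine Nat.Coprime.symm ((Nat.Prime.coprime_iff_not_dvd hp).2 fun d => ?_)
    have := Nat.le_of_dvd (by norm_num) d
    interval_cases p <;> first | omega | exact absurd hp (by norm_num)
  obtain ⟨k, -, hk⟩ := Nat.exists_mul_mod_eq_one_of_coprime c hp.one_lt
  refine ⟨k, fun r => ?_⟩
  rw [smul_smul, mul_comm, ← Nat.mod_add_div (24 * k) p, hk, add_smul, one_smul, mul_comm, mul_smul, h,
    smul_zero, add_zero]

variable {W L : AddSubgroup R}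

theorem Dv.mem (d : Dv R) {r : R} (h : 24 • r ∈ W) : r ∈ W := by
  obtain ⟨k, hk⟩ := d
  rw [← hk r]; exact nsmul_mem h k

theorem Dv.mem2 (d : Dv R) {r : R} (h : 2 • r ∈ W) : r ∈ W :=
  d.mem (by rw [show 24 = 12 * 2 from rfl, mul_smul]; exact nsmul_mem h _)

theorem Dv.inj (d : Dv R) {r s : R} (h : 2 • r = 2 • s) : r = s := by
  rw [← sub_eq_zero, ← AddSubgroup.mem_bot]
  exact d.mem2 (by rw [smul_sub, h, sub_self]; exact zero_mem _)

theorem Dv.half (d : Dv R) (r : R) : ∃ e, 2 • e = r ∧ ∀ W : AddSubgroup R, r ∈ W → e ∈ W := by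
  obtain ⟨k, hk⟩ := d
  refine ⟨(k * 12) • r, ?_, fun W h => nsmul_mem h _⟩
  conv_rhs => rw [← hk r]
  rw [smul_smul, smul_smul]; congr 1; ring

/-- evaluation at a natural number -/
noncomputable def ev (t : ℕ) : R[X] →+* R :=
  eval₂RingHom' (RingHom.id R) (t : R) fun a => (Nat.cast_commute t a).symm

@[simp] theorem ev_C (t : ℕ) (r : R) : ev t (C r) = r := by simp [ev]
@[simp] theorem ev_X (t : ℕ) : ev t (X : R[X]) = t := by simp [ev]

theorem ev_eq (t : ℕ) {P : R[X]} {n : ℕ} (h : P.natDegree ≤ n) :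
    ev t P = ∑ j ∈ Finset.range (n + 1), t ^ j • P.coeff j := by
  conv_lhs => rw [P.as_sum_range' (n + 1) (by omega), map_sum]
  refine Finset.sum_congr rfl fun j _ => ?_
  rw [← C_mul_X_pow_eq_monomial, map_mul, map_pow, ev_C, ev_X, nsmul_eq_mul', Nat.cast_pow]

theorem interp4 (d : Dv R) {P : R[X]} (h : P.natDegree ≤ 4) (hv : ∀ t, ev t P ∈ W) : P ∈ Pw W := by
  have h0 := hv 0; have h1 := hv 1; have h2 := hv 2; have h3 := hv 3; have h4 := hv 4
  simp only [ev_eq _ h, Finset.sum_range_succ, Finset.range_zero, Finset.sum_empty] at h0 h1 h2 h3 h4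
  have key : ∀ a b c e f : ℤ, ∀ r, r = a • _ + b • _ + c • _ + e • _ + f • _ → r ∈ W :=
    fun a b c e f r hr => hr ▸ add_mem (add_mem (add_mem (add_mem (zsmul_mem h0 a) (zsmul_mem h1 b))
      (zsmul_mem h2 c)) (zsmul_mem h3 e)) (zsmul_mem h4 f)
  intro j
  rcases lt_or_ge 4 j with hj | hj
  · rw [coeff_eq_zero_of_natDegree_lt (h.trans_lt hj)]; exact zero_mem _
  refine d.mem ?_
  interval_cases j
  · exact key 24 0 0 0 0 _ (by module)
  · exact key (-50) 96 (-72) 32 (-6) _ (by module)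
  · exact key 35 (-104) 114 (-56) 11 _ (by module)
  · exact key (-10) 36 (-48) 28 (-6) _ (by module)
  · exact key 1 (-4) 6 (-4) 1 _ (by module)

theorem interp2 (d : Dv R) {P : R[X]} (h : P.natDegree ≤ 2) (h0 : ev 0 P ∈ W) (h1 : ev 1 P ∈ W)
    (h2 : ev 2 P ∈ W) : P ∈ Pw W := by
  simp only [ev_eq _ h, Finset.sum_range_succ, Finset.range_zero, Finset.sum_empty] at h0 h1 h2
  have key : ∀ a b c : ℤ, ∀ r, r = a • _ + b • _ + c • _ → r ∈ W :=
    fun a b c r hr => hr ▸ add_mem (add_mem (zsmul_mem h0 a) (zsmul_mem h1 b)) (zsmul_mem h2 c)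
  intro j
  rcases lt_or_ge 2 j with hj | hj
  · rw [coeff_eq_zero_of_natDegree_lt (h.trans_lt hj)]; exact zero_mem _
  refine d.mem2 ?_
  interval_cases j
  · exact key 2 0 0 _ (by module)
  · exact key (-3) 4 (-1) _ (by module)
  · exact key 1 (-2) 1 _ (by module)

/-- the square zero condition -/
def Sq (W : AddSubgroup R) : Prop := ∀ a ∈ W, ∀ b ∈ W, a * b = 0

/-- the unit `1 + a` -/
def un (a : R) (h : a * a = 0) : Rˣ :=
  ⟨1 + a, 1 - a, by rw [add_mul, mul_sub, mul_sub, h]; simp, by rw [sub_mul, mul_add, mul_add, h]; simp⟩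

/-- units normalising `W` -/
def nW (W : AddSubgroup R) : Subgroup Rˣ where
  carrier := {y | ∀ w, w ∈ W ↔ (y : R) * w * (y⁻¹ : Rˣ) ∈ W}
  one_mem' := by simp
  mul_mem' {a b} h k w := by rw [k w, h]; simp [mul_assoc]
  inv_mem' {a} h w := by rw [h (_ * _ * _)]; simp [mul_assoc]

theorem mem_nW {y : Rˣ} (h : ∀ w ∈ W, (y : R) * w * (y⁻¹ : Rˣ) ∈ W)
    (k : ∀ w ∈ W, ((y⁻¹ : Rˣ) : R) * w * y ∈ W) : y ∈ nW W :=
  fun w => ⟨h w, fun e => by simpa [mul_assoc] using k _ e⟩

/-- the key identity -/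
theorem three (d : Dv R) {A B C' : AddSubgroup R} (N : Subgroup Rˣ) (sA : Sq A) (sB : Sq B) (sC : Sq C')
    (nA : N ≤ nW A) (nB : N ≤ nW B) (nC : N ≤ nW C')
    (eA : ∀ u : Rˣ, (u : R) - 1 ∈ A → u ∈ N) (eB : ∀ u : Rˣ, (u : R) - 1 ∈ B → u ∈ N)
    (eC : ∀ u : Rˣ, (u : R) - 1 ∈ C' → u ∈ N) (u : Rˣ) (hu : (u : R) - 1 ∈ A ⊔ B ⊔ C')
    (h2 : ((u : R) - 1) * (u - 1) = 0) : u ∈ N := by
  have br : ∀ {A B : AddSubgroup R}, Sq A → N ≤ nW B → (∀ u : Rˣ, (u : R) - 1 ∈ A → u ∈ N) →
      ∀ a ∈ A, ∀ b ∈ B, a * b - b * a ∈ B := fun {A B} s n e a ha b hb => by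
    have x := e (un a (s a ha a ha)) (by simpa [un] using ha)
    have h1 := (n x b).1 hb
    have h2 := (n (inv_mem x) b).1 hb
    refine d.mem2 ?_
    convert sub_mem h1 h2 using 1
    simp only [un, Units.inv_mk, inv_inv]; noncomm_ring
  have tw : ∀ {A : AddSubgroup R} {b : R}, Sq A → (∀ a ∈ A, b * a - a * b ∈ A) → ∀ a ∈ A, a * (b * a) = 0 :=
    fun {A b} s h a ha => by
      have := s a ha _ (h a ha)
      rwa [mul_sub, ← mul_assoc a a, s a ha a ha, zero_mul, sub_zero] at this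
  obtain ⟨_, hab, c, hc, e⟩ := AddSubgroup.mem_sup.1 hu
  obtain ⟨a, ha, b, hb, rfl⟩ := AddSubgroup.mem_sup.1 hab
  rw [← e] at h2
  have aa := sA a ha a ha
  have bb := sB b hb b hb
  have cc := sC c hc c hc
  have aba := tw sA (br sB nA eB b hb) a ha
  have aca := tw sA (br sC nA eC c hc) a ha
  have bab := tw sB (br sA nB eA a ha) b hb
  have bcb := tw sB (br sC nB eC c hc) b hb
  have cac := tw sC (br sA nC eA a ha) c hc
  have cbc := tw sC (br sB nC eB b hb) c hc
  obtain ⟨e1, d1, m1⟩ := d.half (a * b - b * a)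
  obtain ⟨e2, d2, m2⟩ := d.half (a * c - c * a)
  obtain ⟨e3, d3, m3⟩ := d.half (b * c - c * b)
  have a1 := m1 A (by simpa using neg_mem (br sB nA eB b hb a ha))
  have b1 := m1 B (br sA nB eA a ha b hb)
  have a2 := m2 A (by simpa using neg_mem (br sC nA eC c hc a ha))
  have c2 := m2 C' (br sA nC eA a ha c hc)
  have b3 := m3 B (by simpa using neg_mem (br sC nB eC c hc b hb))
  have c3 := m3 C' (br sB nC eB b hb c hc)
  have r : a * b + b * a + a * c + c * a + b * c + c * b = 0 := by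
    rw [← h2, ← sub_eq_zero]; noncomm_ring [aa, bb, cc]
  have l : ∀ x y : R, x * x = 0 → x * (x * y) = 0 := fun x y h => by rw [← mul_assoc, h, zero_mul]
  have r1 : a * (c * b) = -(a * (b * c)) := by
    have := congrArg (a * ·) r
    simp only [mul_add, l _ _ aa, aba, aca, zero_add, mul_zero] at this
    exact eq_neg_of_add_eq_zero_right this
  have r2 : b * (a * c) = -(a * (b * c)) := by
    have := congrArg (· * c) r
    simp only [add_mul, mul_assoc, cc, cac, cbc, add_zero, mul_zero, zero_mul] at this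
    exact eq_neg_of_add_eq_zero_right this
  have r3 : b * (c * a) = a * (b * c) := by
    have := congrArg (b * ·) r
    simp only [mul_add, l _ _ bb, bab, bcb, zero_add, add_zero, mul_zero, r2] at this
    exact (neg_add_eq_zero.1 this).symm
  have r4 : c * (a * b) = a * (b * c) := by
    have := congrArg (· * b) r
    simp only [add_mul, mul_assoc, bb, bab, bcb, zero_add, add_zero, mul_zero, zero_mul, r1] at this
    exact (neg_add_eq_zero.1 this).symm
  have r5 : c * (b * a) = -(a * (b * c)) := by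
    have := congrArg (c * ·) r
    simp only [mul_add, l _ _ cc, cac, cbc, zero_add, add_zero, mul_zero, r4] at this
    exact eq_neg_of_add_eq_zero_right this
  have t1 : c * e1 = a * (b * c) := d.inj (by rw [← mul_smul_comm, d1, mul_sub, r4, r5]; module)
  have t2 : b * e2 = -(a * (b * c)) := d.inj (by rw [← mul_smul_comm, d2, mul_sub, r2, r3]; module)
  have t3 : a * e3 = a * (b * c) := d.inj (by rw [← mul_smul_comm, d3, mul_sub, r1]; module)
  have s : a * b + a * c + b * c = e1 + e2 + e3 := d.inj (by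
    rw [smul_add 2 (e1 + e2), smul_add 2 e1, d1, d2, d3, ← sub_eq_zero, ← r]; module)
  have m : ∀ {A : AddSubgroup R} (s : Sq A), (∀ u : Rˣ, (u : R) - 1 ∈ A → u ∈ N) → ∀ a (h : a ∈ A),
      un a (s a h a h) ∈ N := fun s e a h => e _ (by simpa [un] using h)
  have fin : u * (un e1 (sA _ a1 _ a1) * un e2 (sA _ a2 _ a2) * un e3 (sB _ b3 _ b3)) =
      un a aa * un b bb * un c cc := by
    ext
    have eu : (u : R) = 1 + (a + b + c) := by rw [e]; abel
    have p1 : (1 + e1) * (1 + e2) * (1 + e3) = 1 + (e1 + e2 + e3) := by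
      rw [← sub_eq_zero]
      noncomm_ring [sA _ a1 _ a2, sB _ b1 _ b3, sC _ c2 _ c3]
    have p2 : (1 + a) * (1 + b) * (1 + c) = 1 + (a + b + c) + (a * b + a * c + b * c) + a * (b * c) := by
      noncomm_ring
    simp only [Units.val_mul, un, eu]
    rw [p1, p2, s, ← sub_eq_zero]
    noncomm_ring [t1, t2, t3, sA _ ha _ a1, sA _ ha _ a2, sB _ hb _ b1, sB _ hb _ b3, sC _ hc _ c2,
      sC _ hc _ c3]
  rw [eq_mul_inv_of_mul_eq fin]
  exact mul_mem (mul_mem (mul_mem (m sA eA a ha) (m sB eB b hb)) (m sC eC c hc))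
    (inv_mem (mul_mem (mul_mem (m sA eA _ a1) (m sA eA _ a2)) (m sB eB _ b3)))

/-- right annihilator -/
def Ann (W : AddSubgroup R) : AddSubgroup R where
  carrier := {c | ∀ w ∈ W, w * c = 0}
  add_mem' h k w hw := by rw [mul_add, h w hw, k w hw, add_zero]
  zero_mem' w _ := mul_zero w
  neg_mem' h w hw := by rw [mul_neg, h w hw, neg_zero]

/-- conjugate -/
def cW (x : Rˣ) (W : AddSubgroup R) : AddSubgroup R where
  carrier := {r | ((x⁻¹ : Rˣ) : R) * r * x ∈ W}
  add_mem' h k := by simpa [mul_add, add_mul] using add_mem h k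
  zero_mem' := by simp
  neg_mem' h := by simpa using h

/-- `W` is square zero and large -/
def Q (c1 c2 : ℕ) (W : AddSubgroup R) : Prop := Sq W ∧ c1 ≤ Nat.card W ∧ c2 ≤ Nat.card (Ann W)

/-- all units in `1 + W` lie in `N` -/
def EL (W : AddSubgroup R) (N : Subgroup Rˣ) : Prop := ∀ u : Rˣ, (u : R) - 1 ∈ W → u ∈ N

theorem Sq.cW (s : Sq W) (x : Rˣ) : Sq (cW x W) := fun a ha b hb => by
  have := congrArg (fun r => (x : R) * r * (x⁻¹ : Rˣ)) (s _ ha _ hb)
  simpa [mul_assoc] using this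

theorem cW_nW {N : Subgroup Rˣ} {x : Rˣ} (h : N ≤ nW W) (hx : x ∈ Subgroup.normalizer (N : Set Rˣ)) :
    N ≤ nW (cW x W) := fun y hy w => by
  have := h ((Subgroup.mem_normalizer_iff''.1 hx y).1 hy) ((x⁻¹ : Rˣ) * w * x)
  simpa [cW, mul_assoc] using this

theorem EL.cW {N : Subgroup Rˣ} {x : Rˣ} (h : EL W N) (hx : x ∈ Subgroup.normalizer (N : Set Rˣ)) :
    EL (cW x W) N := fun u hu => (Subgroup.mem_normalizer_iff''.1 hx u).2 (h _ (by
  simpa [Lynd.cW, mul_sub, sub_mul] using hu))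

theorem rep [Finite R] (d : Dv R) {c1 c2 : ℕ} (hQ : Q c1 c2 W) {N K : Subgroup Rˣ} (NK : N ≤ K)
    (KW : K ≤ nW W) (eN : EL W N) (x : Rˣ) (hx : ((x : R) - 1) * (x - 1) = 0)
    (xK : x ∈ Subgroup.normalizer (K : Set Rˣ)) (xN : x ∈ Subgroup.normalizer (N : Set Rˣ)) :
    ∃ W' : AddSubgroup R, Q c1 c2 W' ∧ EL W' N ∧ K ≤ nW W' ∧ x ∈ nW W' := by
  obtain ⟨D, hD, rfl⟩ : ∃ D h, x = un D h := ⟨x - 1, hx, Units.ext (by simp [un])⟩
  set x := un D hD
  let u : R[X] := 1 + C D * X
  let v : R[X] := 1 - C D * X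
  have DD : C D * X * (C D * X) = 0 := by
    rw [mul_assoc, ← mul_assoc X, X_mul_C, ← mul_assoc, ← mul_assoc, ← C_mul, hD]; simp
  have uv : u * v = 1 := by simp only [u, v]; rw [add_mul, mul_sub, mul_sub, DD]; simp
  have vu : v * u = 1 := by simp only [u, v]; rw [sub_mul, mul_add, mul_add, DD]; simp
  have du : u.natDegree ≤ 1 := by simp only [u]; compute_degree
  have dv : v.natDegree ≤ 1 := by simp only [v]; compute_degree
  have eu : ∀ t, ev t u = (x ^ t : Rˣ) := fun t => by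
    have : ev t u = 1 + t • D := by simp [u, (Nat.cast_commute t D).eq]
    rw [this]
    induction t with
    | zero => simp
    | succ t ih =>
      rw [pow_succ, Units.val_mul, ← ih (by simp [u, (Nat.cast_commute t D).eq])]
      simp only [x, un, add_mul, mul_add, smul_mul_assoc, hD, succ_nsmul]; simp; abel
  have evv : ∀ t, ev t v = ((x ^ t)⁻¹ : Rˣ) := fun t =>
    Units.eq_inv_of_mul_eq_one_left (by rw [← eu, ← map_mul, uv, map_one])
  have sq : Sq (Lim u v W) := Lim.mul hQ.1 vu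
  have hK : ∀ y ∈ K, ∀ w ∈ Lim u v W, (y : R) * w * (y⁻¹ : Rˣ) ∈ Lim u v W := fun y hy =>
    Lim.conj uv fun w hw => interp4 d (by
      have := natDegree_mul_le (p := v * C (y : R) * u * C w) (q := v * C ((y⁻¹ : Rˣ) : R) * u)
      have := natDegree_mul_C_le (v * C (y : R) * u) w
      have := natDegree_mul_le (p := v * C (y : R)) (q := u)
      have := natDegree_mul_le (p := v * C ((y⁻¹ : Rˣ) : R)) (q := u)
      have := natDegree_mul_C_le v (y : R)
      have := natDegree_mul_C_le v ((y⁻¹ : Rˣ) : R)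
      omega) fun t => by
      have := (KW ((Subgroup.mem_normalizer_iff''.1 (pow_mem xK t) y).1 hy) w).1 hw
      simpa only [map_mul, ev_C, eu, evv, Units.val_mul, mul_inv_rev, inv_inv, mul_assoc] using this
  have hd : ∀ a ∈ Lim u v W, D * a - a * D ∈ Lim u v W := Lim.der
    (by simp [u, mul_add, ← mul_assoc, ← C_mul, hD])
    (by simp [v, sub_mul, mul_assoc, X_mul_C, ← mul_assoc (C D), ← C_mul, hD])
  have hd2 : ∀ a ∈ Lim u v W, D * a * D ∈ Lim u v W := fun a ha => d.mem2 (by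
    convert neg_mem (hd _ (hd a ha)) using 1
    have : D * (D * a) = 0 := by rw [← mul_assoc, hD, zero_mul]
    noncomm_ring [hD, this])
  refine ⟨Lim u v W, ⟨sq, hQ.2.1.trans (Lim.card vu vu), hQ.2.2.trans ((Lim.card (u := u) (v := 1) vu
    (mul_one 1)).trans (AddSubgroup.card_le_of_le fun c hc a ha => ?_))⟩, fun y hy => ?_,
    fun y hy => mem_nW (hK y hy) (by simpa using hK _ (inv_mem hy)), mem_nW (fun w hw => ?_) fun w hw => ?_⟩
  · exact Lim.mul (W' := Ann W) (fun a ha b hb => hb a ha) vu a ha c hc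
  · have x2 := pow_mem xN 2
    refine three d N hQ.1 (hQ.1.cW x) (hQ.1.cW (x ^ 2)) (NK.trans KW) (cW_nW (NK.trans KW) xN)
      (cW_nW (NK.trans KW) x2) eN (eN.cW xN) (eN.cW x2) y (Lim.le (fun w hw => ?_) hy) (sq _ hy _ hy)
    refine interp2 d ?_ ?_ ?_ ?_
    · have := natDegree_mul_le (p := u * C w) (q := v)
      have := natDegree_mul_C_le u w
      omega
    all_goals simp only [map_mul, ev_C, eu, evv]
    · exact AddSubgroup.mem_sup_left (AddSubgroup.mem_sup_left (by simpa using hw))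
    · exact AddSubgroup.mem_sup_left (AddSubgroup.mem_sup_right (by simpa [cW, mul_assoc] using hw))
    · refine AddSubgroup.mem_sup_right ?_
      generalize x ^ 2 = z
      simpa [cW, mul_assoc] using hw
  · convert sub_mem (add_mem hw (hd w hw)) (hd2 w hw) using 1
    simp only [x, un, Units.inv_mk]; noncomm_ring
  · convert sub_mem (sub_mem hw (hd w hw)) (hd2 w hw) using 1
    simp only [x, un, Units.inv_mk]; noncomm_ring

end CF.Lynd
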