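/-
The group theoretic induction: a two-subnormal square zero subgroup.
-/
import Cfsg.Agent.Lynd.Rep
set_option autoImplicit false
set_option linter.unusedSectionVars false

namespace CF.Lynd
open Subgroup

section grp
variable {Γ : Type*} [Group Γ]

/-- conjugate subgroup -/
def cj (g : Γ) (A : Subgroup Γ) : Subgroup Γ := A.map (MulAut.conj g).toMonoidHom

theorem mem_cj {g x : Γ} {A : Subgroup Γ} : x ∈ cj g A ↔ g⁻¹ * x * g ∈ A := by
  rw [cj, mem_map_equiv]; simp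

theorem cj_mul (g h : Γ) (A : Subgroup Γ) : cj (g * h) A = cj g (cj h A) := by
  ext; simp [mem_cj, mul_assoc]

theorem cj_mono (g : Γ) {A B : Subgroup Γ} (h : A ≤ B) : cj g A ≤ cj g B := map_mono h

/-- `L` normalises `K` -/
def Nm (L K : Subgroup Γ) : Prop := ∀ l ∈ L, cj l K ≤ K

variable {L K K' N M H A : Subgroup Γ}

theorem Nm.of (h : ∀ l ∈ L, ∀ k ∈ K, l * k * l⁻¹ ∈ K) : Nm L K := fun l hl x hx => by
  simpa [mul_assoc] using h l hl _ (mem_cj.1 hx)

theorem Nm.mem (h : Nm L K) {l k : Γ} (hl : l ∈ L) (hk : k ∈ K) : l * k * l⁻¹ ∈ K :=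
  h l hl (mem_cj.2 (by simpa [mul_assoc] using hk))

theorem Nm.le (h : Nm L K) : L ≤ normalizer (K : Set Γ) := fun l hl => mem_normalizer_iff.2 fun k =>
  ⟨h.mem hl, fun e => by simpa [mul_assoc] using h.mem (inv_mem hl) e⟩

theorem Nm.sup (h : Nm L K) (h' : Nm L K') : Nm L (K ⊔ K') := fun l hl => by
  rw [cj, Subgroup.map_sup]; exact sup_le_sup (h l hl) (h' l hl)

theorem Nm.mono (h : Nm L K) (e : M ≤ L) : Nm M K := fun l hl => h l (e hl)

theorem Nm.cj (h : Nm L K) (g : Γ) : Nm (cj g L) (cj g K) := fun l hl => by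
  have := cj_mono g (h _ (mem_cj.1 hl))
  rwa [← cj_mul, ← mul_assoc, ← mul_assoc, mul_inv_cancel, one_mul, cj_mul] at this

theorem Nm.eq (h : Nm L K) {l : Γ} (hl : l ∈ L) : Lynd.cj l K = K :=
  le_antisymm (h l hl) fun k hk => mem_cj.2 (by simpa using h.mem (inv_mem hl) hk)

/-- normal closure of `A` under `M` -/
def ncl (M A : Subgroup Γ) : Subgroup Γ := ⨆ m : M, cj m A

theorem le_ncl {m : Γ} (h : m ∈ M) : cj m A ≤ ncl M A := le_iSup (fun m : M => cj (m : Γ) A) ⟨m, h⟩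

theorem nm_ncl : Nm M (ncl M A) := fun l hl => by
  rw [ncl, cj, Subgroup.map_iSup]
  exact iSup_le fun m => ((cj_mul l m A).symm.le).trans (le_ncl (mul_mem hl m.2))

theorem ncl_le (h : Nm M K) (e : A ≤ K) : ncl M A ≤ K :=
  iSup_le fun m => (cj_mono _ e).trans (h m m.2)

/-- `P` passes from `K` to `K ⊔ L` -/
def Good (N : Subgroup Γ) (P : Subgroup Γ → Prop) (L : Subgroup Γ) : Prop :=
  ∀ K, N ≤ K → Nm L K → P K → P (K ⊔ L)

theorem Good.iSup [Finite Γ] {P : Subgroup Γ → Prop} {ι : Type*} {f : ι → Subgroup Γ} (e : L = ⨆ i, f i)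
    (n : ∀ i, Nm L (f i)) (g : ∀ i, Good N P (f i)) : Good N P L := fun K NK LK PK => by
  obtain ⟨K', ⟨h1, h2, h3, h4⟩, mx⟩ := exists_maximal_of_wellFoundedGT
    (fun K' => K ≤ K' ∧ K' ≤ K ⊔ L ∧ Nm L K' ∧ P K') ⟨K, le_rfl, le_sup_left, LK, PK⟩
  have fl : ∀ i, f i ≤ L := fun i => e ▸ le_iSup f i
  have : L ≤ K' := e.le.trans (iSup_le fun i => le_sup_right.trans (mx ⟨h1.trans le_sup_left,
    sup_le h2 ((fl i).trans le_sup_right), h3.sup (n i), g i K' (NK.trans h1) (h3.mono (fl i)) h4⟩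
    le_sup_left))
  rwa [← le_antisymm h2 (sup_le h1 this)]

theorem climb [Finite Γ] {P : Subgroup Γ → Prop} (HM : Nm H M) (MH : M ≤ H) (AM : A ≤ M)
    (ab : ∀ a ∈ A, ∀ b ∈ A, a * b = b * a) (NA : Nm (ncl M A) A)
    (st : ∀ g ∈ H, ∀ x ∈ cj g A, Good (ncl M A) P (zpowers x)) (p0 : P (ncl M A)) :
    P (ncl H (ncl M A)) := by
  have g1 : ∀ g ∈ H, Good (ncl M A) P (cj g A) := fun g hg =>
    Good.iSup (f := fun x : cj g A => zpowers (x : Γ))
      (le_antisymm (fun x hx => mem_iSup_of_mem ⟨x, hx⟩ (mem_zpowers x))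
        (iSup_le fun x => (zpowers_le).2 x.2))
      (fun x => Nm.of fun l hl k hk => by
        have hk' := mem_cj.1 ((zpowers_le).2 x.2 hk)
        have := congrArg (fun y => g * y * g⁻¹) (ab _ (mem_cj.1 hl) _ hk')
        simp only [mul_assoc, mul_inv_cancel_left, mul_inv_cancel, mul_one] at this
        rwa [this, mul_inv_cancel_right]) fun x => st g hg x x.2
  have g2 : ∀ g ∈ H, Good (ncl M A) P (cj g (ncl M A)) := fun g hg =>
    Good.iSup (f := fun m : M => cj g (cj m A)) (Subgroup.map_iSup _ _)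
      (fun m => by have := (NA.cj m).cj g; rwa [nm_ncl.eq m.2] at this)
      fun m => cj_mul g m A ▸ g1 _ (mul_mem hg (MH m.2))
  have NM : ncl M A ≤ M := ncl_le (Nm.of fun l hl k hk => mul_mem (mul_mem hl hk) (inv_mem hl)) AM
  have JM : ncl H (ncl M A) ≤ M := ncl_le HM NM
  have g3 : Good (ncl M A) P (ncl H (ncl M A)) :=
    Good.iSup (f := fun g : H => cj g (ncl M A)) rfl
      (fun g => by have := (nm_ncl (M := M) (A := A)).cj g; rw [HM.eq g.2] at this; exact this.mono JM)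
      fun g => g2 g g.2
  have := g3 _ le_rfl (nm_ncl.mono JM) p0
  rwa [sup_eq_right.2 (fun x hx => le_ncl H.one_mem (mem_cj.2 (by simpa using hx)))] at this

theorem exists_max [Finite Γ] {p : ℕ} [Fact p.Prime] (hH : IsPGroup p H) (AH : A ≤ H) (ne : ¬ H ≤ A) :
    ∃ M, A ≤ M ∧ M < H ∧ Nm H M := by
  obtain ⟨M, hM, le⟩ := (eq_top_or_exists_le_coatom (A.subgroupOf H)).resolve_left
    fun e => ne (subgroupOf_eq_top.1 e)
  haveI := hH.isNilpotent
  have n := NormalizerCondition.normal_of_coatom M Group.normalizerCondition_of_isNilpotent hM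
  refine ⟨M.map H.subtype, fun a ha => ⟨⟨a, AH ha⟩, le ha, rfl⟩, lt_of_le_of_ne (map_subtype_le M) fun e =>
    hM.1 (eq_top_iff.2 fun x _ => ?_), Nm.of ?_⟩
  · obtain ⟨y, hy, h⟩ := e.ge x.2
    exact (Subtype.ext h : y = x) ▸ hy
  · rintro l hl _ ⟨k, hk, rfl⟩
    exact ⟨_, n.conj_mem k hk ⟨l, hl⟩, rfl⟩

end grp

variable {R : Type*} [Ring R] {W : AddSubgroup R}

/-- the group `1 + W` -/
def E (s : Sq W) : Subgroup Rˣ where
  carrier := {u | (u : R) - 1 ∈ W}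
  one_mem' := by simp
  mul_mem' {a b} h k := by
    have := s _ h _ k
    show (a : R) * b - 1 ∈ W
    rw [show (a : R) * b - 1 = (a - 1) * (b - 1) + (a - 1) + (b - 1) by noncomm_ring, this, zero_add]
    exact add_mem h k
  inv_mem' {a} h := by
    have : ((a⁻¹ : Rˣ) : R) = 1 - (a - 1) := Units.inv_eq_of_mul_eq_one_right (by
      rw [← sub_eq_zero, ← neg_eq_zero, ← s _ h _ h]; noncomm_ring)
    show ((a⁻¹ : Rˣ) : R) - 1 ∈ W
    rw [this, sub_sub_cancel_left]; exact neg_mem h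

theorem E_comm (s : Sq W) : ∀ a ∈ E s, ∀ b ∈ E s, a * b = b * a := fun a ha b hb => Units.ext (by
  rw [Units.val_mul, Units.val_mul, ← sub_eq_zero, ← sub_self (0 : R)]
  nth_rewrite 1 [← s _ ha _ hb]
  rw [← s _ hb _ ha]; noncomm_ring)

theorem nm_E (s : Sq W) : Nm (nW W) (E s) := Nm.of fun l hl k hk => by
  have := (hl _).1 hk
  show ((l * k * l⁻¹ : Rˣ) : R) - 1 ∈ W
  simpa [mul_sub, sub_mul] using this

theorem E_le (s : Sq W) : E s ≤ nW W := fun x hx => by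
  have key : ∀ y ∈ E s, ∀ w ∈ W, (y : R) * w = w ∧ w * y = w := fun y hy w hw =>
    ⟨by simpa [sub_mul, sub_eq_zero] using s _ hy _ hw, by simpa [mul_sub, sub_eq_zero] using s _ hw _ hy⟩
  exact mem_nW (fun w hw => by rwa [(key _ hx w hw).1, (key _ (inv_mem hx) w hw).2])
    fun w hw => by rwa [(key _ (inv_mem hx) w hw).1, (key _ hx w hw).2]

theorem main [Finite R] (d : Dv R) {p : ℕ} [Fact p.Prime] {c1 c2 : ℕ} (q0 : Q c1 c2 W) (H : Subgroup Rˣ)
    (hH : IsPGroup p H) (e : E q0.1 ≤ H) :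
    ∃ W' : AddSubgroup R, ∃ q : Q c1 c2 W', E q.1 ≤ H ∧ ncl H (E q.1) ≤ nW W' := by
  induction H using WellFoundedLT.induction with
  | ind H ih =>
  have hh : Nm H H := Nm.of fun l hl k hk => mul_mem (mul_mem hl hk) (inv_mem hl)
  by_cases h : H ≤ E q0.1
  · exact ⟨W, q0, e, ((ncl_le hh e).trans h).trans (E_le _)⟩
  obtain ⟨M, AM, MH, HM⟩ := exists_max hH e h
  obtain ⟨W1, q, EM, nw⟩ := ih M MH (hH.to_le MH.le) AM
  have NM : ncl M (E q.1) ≤ M := ncl_le (Nm.of fun l hl k hk => mul_mem (mul_mem hl hk) (inv_mem hl)) EM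
  have one : ∀ {H A : Subgroup Rˣ}, A ≤ ncl H A := fun {H A} x hx =>
    le_ncl (one_mem _) (mem_cj.2 (by simpa using hx))
  obtain ⟨W', q', el, le⟩ := climb (P := fun K => ∃ W' : AddSubgroup R, Q c1 c2 W' ∧ EL W' (ncl M (E q.1)) ∧
    K ≤ nW W') HM MH.le EM (E_comm q.1) ((nm_E q.1).mono nw) (fun g hg x hx K NK xK ⟨W2, q2, el, KW⟩ => by
      have h1 : ((g⁻¹ * x * g : Rˣ) : R) - 1 ∈ W1 := mem_cj.1 hx
      have h2 : (x : R) - 1 ∈ cW g W1 := by simpa [cW, mul_sub, sub_mul] using h1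
      obtain ⟨W3, q3, el', a, b⟩ := rep d q2 NK KW el x (q.1.cW g _ h2 _ h2) (xK.le (mem_zpowers x))
        (nm_ncl.le (HM g hg (cj_mono g EM hx)))
      exact ⟨W3, q3, el', sup_le a (zpowers_le.2 b)⟩) ⟨W1, q, fun u hu => one hu, nw⟩
  exact ⟨W', q', fun u hu => MH.le (NM (el u hu)), (ncl_le nm_ncl fun u hu => one (el u hu)).trans le⟩

end CF.Lynd
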