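/-
Translation to conjugation actions.
-/
import Cfsg.Agent.Lynd.Ind
import Cfsg.Agent.PLocal.FFLoc
set_option autoImplicit false
set_option linter.unusedSectionVars false

namespace CF.Lynd
open Subgroup Module
open scoped commutatorElement

section lin
variable {F M : Type*} [Field F] [AddCommGroup M] [Module F M]

/-- common kernel -/
def fix (W : AddSubgroup (End F M)) : Submodule F M where
  carrier := {v | ∀ w ∈ W, w v = 0}
  add_mem' h k w hw := by rw [map_add, h w hw, k w hw, add_zero]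
  zero_mem' w _ := map_zero w
  smul_mem' c v h w hw := by rw [map_smul, h w hw, smul_zero]

theorem card_Ann [Finite M] (W : AddSubgroup (End F M)) :
    Nat.card (Ann W) = Nat.card (fix W) ^ finrank F M := by
  let e : Ann W ≃ (M →ₗ[F] fix W) :=
    { toFun := fun c => LinearMap.codRestrict _ c.1 fun v w hw => LinearMap.congr_fun (c.2 w hw) v
      invFun := fun f => ⟨(fix W).subtype ∘ₗ f, fun w hw => LinearMap.ext fun v => (f v).2 w hw⟩
      left_inv := fun _ => rfl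
      right_inv := fun _ => rfl }
  rw [Nat.card_congr (e.trans ((finBasis F M).constr ℕ).symm.toEquiv), Nat.card_fun, Nat.card_fin]

theorem fix_le [Finite M] {W W' : AddSubgroup (End F M)} (h : Nat.card (Ann W) ≤ Nat.card (Ann W')) :
    Nat.card (fix W) ≤ Nat.card (fix W') := by
  rw [card_Ann, card_Ann] at h
  rcases (finrank F M).eq_zero_or_pos with e | e
  · haveI := finrank_zero_iff.1 e
    rw [Nat.card_unique, Nat.card_unique]
  · exact (Nat.pow_le_pow_iff_left e.ne').1 h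
end lin

theorem exists_lin.{u} {Ω : Type u} [Group Ω] [Finite Ω] {p : ℕ} [Fact p.Prime] {V G : Subgroup Ω}
    (hV : Cfsg.IsElementaryAbelian p V) (hGV : G ≤ normalizer (V : Set Ω)) :
    ∃ (M : Type u) (_ : AddCommGroup M) (_ : Module (ZMod p) M) (_ : Finite M) (e : M → Ω)
      (ρ : G →* (End (ZMod p) M)ˣ), e.Injective ∧ (∀ v, v ∈ V ↔ ∃ m, e m = v) ∧
        (∀ a b, e (a - b) = e a * (e b)⁻¹) ∧ ∀ g m, e ((ρ g).val m) = g * e m * (g : Ω)⁻¹ := by
  haveI := hV.1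
  open scoped IsMulCommutative in
  have : Module (ZMod p) (Additive V) := AddCommGroup.zmodModule fun x => Subtype.ext (hV.2 _ x.toMul.2)
  let ψ : G →* MulAut V := V.normalizerMonoidHom.comp (inclusion hGV)
  open scoped IsMulCommutative in
  let ρ : G →* End (ZMod p) (Additive V) :=
    { toFun := fun h => (MonoidHom.toAdditive (ψ h).toMonoidHom).toZModLinearMap p
      map_one' := by ext e; simp
      map_mul' := fun g h => by ext e; simp }
  exact ⟨_, _, this, inferInstance, fun m => m.toMul.1, ρ.toHomUnits, fun a b h => Subtype.ext h,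
    fun v => ⟨fun h => ⟨.ofMul ⟨v, h⟩, rfl⟩, fun ⟨m, h⟩ => h ▸ m.toMul.2⟩,
    fun a b => by simp [div_eq_mul_inv], fun g m => rfl⟩

theorem top {Ω : Type*} [Group Ω] [Finite Ω] {p : ℕ} [hp : Fact p.Prime] (h5 : 5 ≤ p) {V G B : Subgroup Ω}
    (hV : Cfsg.IsElementaryAbelian p V) (hG : IsPGroup p G) (hGV : G ≤ normalizer (V : Set Ω))
    (hf : G ⊓ centralizer (V : Set Ω) = ⊥) (BG : B ≤ G) (hq : ⁅V, B⁆ ≤ centralizer (B : Set Ω)) :
    ∃ A ≤ G, Nat.card B ≤ Nat.card A ∧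
      Nat.card ↥(V ⊓ centralizer (B : Set Ω)) ≤ Nat.card ↥(V ⊓ centralizer (A : Set Ω)) ∧
      Cfsg.IsElementaryAbelian p A ∧ ⁅⁅V, A⁆, A⁆ = ⊥ ∧
      ∀ g ∈ closure {x : Ω | ∃ h ∈ G, ∃ a ∈ A, x = h * a * h⁻¹}, ∀ a ∈ A, g * a * g⁻¹ ∈ A := by
  obtain ⟨M, _, _, _, e, ρ, ei, eV, es, eρ⟩ := exists_lin hV hGV
  haveI : Finite (End (ZMod p) M) := Finite.of_injective _ DFunLike.coe_injective
  have pR : ∀ r : End (ZMod p) M, p • r = 0 := fun r => by
    rw [← Nat.cast_smul_eq_nsmul (ZMod p), ZMod.natCast_self, zero_smul]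
  have fx : ∀ (g : G) m, ((ρ g).val - 1) m = 0 ↔ g * e m = e m * g := fun g m => by
    rw [LinearMap.sub_apply, sub_eq_zero, ← ei.eq_iff, eρ, mul_inv_eq_iff_eq_mul]; rfl
  have cm : ∀ (g : G) m, e (((ρ g).val - 1) m) = ⁅(g : Ω), e m⁆ := fun g m => by
    rw [LinearMap.sub_apply, es, eρ]; rfl
  have ρi : Function.Injective ρ := (injective_iff_map_eq_one ρ).2 fun g hg => Subtype.ext
    (mem_bot.1 (hf ▸ ⟨g.2, fun v hv => by
      obtain ⟨m, rfl⟩ := (eV v).1 hv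
      exact ((fx g m).1 (by simp [hg])).symm⟩ : (g : Ω) ∈ (⊥ : Subgroup Ω)))
  let Aof : Subgroup (End (ZMod p) M)ˣ → Subgroup Ω := fun S => (S.comap ρ).map G.subtype
  have mA : ∀ {S} {x : Ω}, x ∈ Aof S ↔ ∃ h : x ∈ G, ρ ⟨x, h⟩ ∈ S := fun {S x} =>
    ⟨fun ⟨y, h, k⟩ => k ▸ ⟨y.2, h⟩, fun ⟨h, k⟩ => ⟨⟨x, h⟩, k, rfl⟩⟩
  have cA : ∀ {W} (s : Sq W), E s ≤ ρ.range → Nat.card (Aof (E s)) = Nat.card W ∧
      Nat.card ↥(V ⊓ centralizer (Aof (E s) : Set Ω)) = Nat.card (fix W) := fun {W} s h => by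
    have su : ∀ w ∈ W, ∃ g : G, ρ g ∈ E s ∧ (ρ g).val - 1 = w := fun w hw => by
      have m : un w (s w hw w hw) ∈ E s := show _ - 1 ∈ W by simpa [un] using hw
      obtain ⟨g, hg⟩ := h m
      exact ⟨g, hg ▸ m, by simp [hg, un]⟩
    constructor
    · refine Nat.card_eq_of_bijective (fun a => ⟨(ρ ⟨a, map_subtype_le _ a.2⟩).val - 1, (mA.1 a.2).2⟩)
        ⟨fun a b k => ?_, fun w => ?_⟩
      · exact Subtype.ext (congrArg Subtype.val (ρi (Units.ext (sub_left_injective (congrArg Subtype.val k)))) :)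
      · obtain ⟨g, h1, h2⟩ := su w w.2
        exact ⟨⟨g, mA.2 ⟨g.2, h1⟩⟩, Subtype.ext h2⟩
    · refine (Nat.card_eq_of_bijective (fun m : fix W => (⟨e m, (eV _).2 ⟨m, rfl⟩, fun a ha =>
        (fx ⟨a, (mA.1 ha).1⟩ m).1 (m.2 _ (mA.1 ha).2)⟩ : ↥(V ⊓ centralizer (Aof (E s) : Set Ω))))
        ⟨fun a b k => Subtype.ext (ei (congrArg Subtype.val k)), fun v => ?_⟩).symm
      obtain ⟨m, hm⟩ := (eV v).1 v.2.1
      refine ⟨⟨m, fun w hw => ?_⟩, Subtype.ext hm⟩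
      obtain ⟨g, h1, rfl⟩ := su w hw
      exact (fx g m).2 (hm ▸ v.2.2 _ (mA.2 ⟨g.2, h1⟩))
  have qB : ∀ a b : G, (a : Ω) ∈ B → (b : Ω) ∈ B → ((ρ a).val - 1) * ((ρ b).val - 1) = 0 := fun a b ha hb =>
    LinearMap.ext fun m => (fx a _).2 (by
      rw [cm]
      exact hq (commutator_comm V B ▸ commutator_mem_commutator hb ((eV _).2 ⟨m, rfl⟩)) _ ha)
  let W : AddSubgroup (End (ZMod p) M) :=
    { carrier := {r | ∃ b : G, (b : Ω) ∈ B ∧ (ρ b).val - 1 = r}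
      zero_mem' := ⟨1, B.one_mem, by simp⟩
      add_mem' := by
        rintro _ _ ⟨a, ha, rfl⟩ ⟨b, hb, rfl⟩
        refine ⟨a * b, B.mul_mem ha hb, ?_⟩
        rw [map_mul, Units.val_mul, ← sub_eq_zero, ← qB a b ha hb]; noncomm_ring
      neg_mem' := by
        rintro _ ⟨a, ha, rfl⟩
        refine ⟨a⁻¹, B.inv_mem ha, ?_⟩
        have := qB a a⁻¹ ha (B.inv_mem ha)
        rw [sub_mul, mul_sub, ← Units.val_mul, ← map_mul, mul_inv_cancel, map_one] at this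
        rw [← sub_eq_zero, ← neg_eq_zero, ← this]; simp only [Units.val_one]; noncomm_ring }
  have s : Sq W := by rintro _ ⟨a, ha, rfl⟩ _ ⟨b, hb, rfl⟩; exact qB a b ha hb
  have le : E s ≤ ρ.range := fun u ⟨b, _, h⟩ => ⟨b, Units.ext (sub_left_injective h)⟩
  have eB : Aof (E s) = B := ext fun x => mA.trans ⟨fun ⟨h, b, hb, k⟩ => by
    rwa [ρi (Units.ext (sub_left_injective k))] at hb, fun h => ⟨BG h, _, h, rfl⟩⟩
  obtain ⟨W', q, le', nw⟩ := main (W := W) (Dv.of_prime hp.out h5 pR) ⟨s, le_rfl, le_rfl⟩ ρ.range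
    (hG.of_surjective _ ρ.rangeRestrict_surjective) le
  refine ⟨Aof (E q.1), map_subtype_le _, ?_, ?_, ⟨⟨⟨fun a b => Subtype.ext ?_⟩⟩, fun a ha => ?_⟩, ?_, ?_⟩
  · rw [← eB, (cA s le).1, (cA _ le').1]; exact q.2.1
  · rw [← eB, (cA s le).2, (cA _ le').2]; exact fix_le q.2.2
  · obtain ⟨h, k⟩ := mA.1 a.2
    obtain ⟨h', k'⟩ := mA.1 b.2
    have := E_comm q.1 _ k _ k'
    rw [← map_mul, ← map_mul] at this
    exact (congrArg Subtype.val (ρi this) :)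
  · obtain ⟨h, k⟩ := mA.1 ha
    have : ∀ n : ℕ, (ρ ⟨a, h⟩).val ^ n = 1 + n • ((ρ ⟨a, h⟩).val - 1) := fun n => by
      induction n with
      | zero => simp
      | succ n ih =>
        rw [pow_succ, ih, ← sub_eq_zero, ← smul_zero n, ← q.1 _ k _ k, succ_nsmul, add_mul, smul_mul_assoc,
          mul_sub, mul_one, one_mul]
        module
    have t : ρ (⟨a, h⟩ ^ p) = ρ 1 := Units.ext (by
      rw [map_pow, Units.val_pow_eq_pow_val, this, pR, map_one, add_zero, Units.val_one])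
    exact congrArg Subtype.val (ρi t)
  · rw [commutator_eq_bot_iff_le_centralizer, commutator_comm, commutator_le]
    intro a ha v hv b hb
    obtain ⟨m, rfl⟩ := (eV v).1 hv
    obtain ⟨h, k⟩ := mA.1 ha
    obtain ⟨h', k'⟩ := mA.1 hb
    exact cm ⟨a, h⟩ m ▸ (fx ⟨b, h'⟩ _).1 (LinearMap.congr_fun (q.1 _ k' _ k) m)
  · intro g hg a ha
    have : closure {x : Ω | ∃ h ∈ G, ∃ a ∈ Aof (E q.1), x = h * a * h⁻¹} ≤ Aof (nW W') := by
      rw [closure_le]
      rintro _ ⟨h, hh, a, ha, rfl⟩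
      obtain ⟨h1, k⟩ := mA.1 ha
      refine ⟨⟨h, hh⟩ * ⟨a, h1⟩ * (⟨h, hh⟩ : G)⁻¹, nw (le_ncl (M := ρ.range) (m := ρ ⟨h, hh⟩) ⟨_, rfl⟩
        (mem_cj.2 ?_)), rfl⟩
      simpa only [map_mul, map_inv, mul_assoc, inv_mul_cancel_left, inv_mul_cancel, mul_one] using k
    obtain ⟨h1, k1⟩ := mA.1 (this hg)
    obtain ⟨h2, k2⟩ := mA.1 ha
    refine ⟨⟨g, h1⟩ * ⟨a, h2⟩ * (⟨g, h1⟩ : G)⁻¹, ?_, rfl⟩
    simpa only [coe_comap, Set.mem_preimage, map_mul, map_inv, SetLike.mem_coe] using (nm_E q.1).mem k1 k2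

end CF.Lynd
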